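import Mathlib

set_option autoImplicit false

namespace Cfsg.Agent.Lib.Helper19

/-- In odd characteristic, a permutation that agrees on every triple of points with some affine
map is itself affine. -/
theorem affine_of_agree_on_triples (p : ℕ) [Fact p.Prime] (hp : p ≠ 2) {V : Type*}
    [AddCommGroup V] [Module (ZMod p) V] (S : Set (Equiv.Perm V))
    (haff : ∀ τ ∈ S, ∃ (A : V ≃ₗ[ZMod p] V) (b : V), ∀ x, τ x = A x + b)
    (σ : Equiv.Perm V) (hσ : ∀ t : Fin 3 → V, ∃ g ∈ S, ∀ i, σ (t i) = g (t i)) :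
    ∃ (A : V ≃ₗ[ZMod p] V) (b : V), ∀ x, σ x = A x + b := by
  have hcomb : ∀ (x y : V) (c : ZMod p),
      σ ((1 - c) • x + c • y) = (1 - c) • σ x + c • σ y := by
    intro x y c
    obtain ⟨g, hg, hgt⟩ := hσ ![x, y, (1 - c) • x + c • y]
    obtain ⟨B, b, hB⟩ := haff g hg
    have h0 : σ x = g x := hgt 0
    have h1 : σ y = g y := hgt 1
    have h2 : σ ((1 - c) • x + c • y) = g ((1 - c) • x + c • y) := hgt 2
    rw [h2, h0, h1, hB, hB, hB, map_add, map_smul, map_smul]
    module
  have h2 : (2 : ZMod p) ≠ 0 := by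
    intro h
    have h' : ((2 : ℕ) : ZMod p) = 0 := by exact_mod_cast h
    rw [ZMod.natCast_eq_zero_iff] at h'
    have hpp : p.Prime := Fact.out
    exact hp ((Nat.prime_dvd_prime_iff_eq hpp Nat.prime_two).mp h')
  have hτ : ∀ (x y : V) (c : ZMod p),
      σ ((1 - c) • x + c • y) - σ 0 = (1 - c) • (σ x - σ 0) + c • (σ y - σ 0) := by
    intro x y c
    rw [hcomb]
    module
  have hsmul : ∀ (c : ZMod p) (y : V), σ (c • y) - σ 0 = c • (σ y - σ 0) := by
    intro c y
    have h := hτ 0 y c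
    rw [smul_zero, zero_add, sub_self, smul_zero, zero_add] at h
    exact h
  have hadd : ∀ x y : V, σ (x + y) - σ 0 = (σ x - σ 0) + (σ y - σ 0) := by
    intro x y
    obtain ⟨h, hh⟩ : ∃ h : ZMod p, h * 2 = 1 := ⟨2⁻¹, inv_mul_cancel₀ h2⟩
    have e1 : (1 - h) * 2 = 1 := by linear_combination (-1 : ZMod p) * hh
    have key := hτ ((2 : ZMod p) • x) ((2 : ZMod p) • y) h
    rw [smul_smul, smul_smul, e1, hh, one_smul, one_smul, hsmul, hsmul, smul_smul, smul_smul, e1,
      hh, one_smul, one_smul] at key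
    exact key
  let L : V →ₗ[ZMod p] V :=
    { toFun := fun x => σ x - σ 0
      map_add' := hadd
      map_smul' := fun c x => by simpa using hsmul c x }
  have hinj : Function.Injective L := fun x y hxy => σ.injective (sub_left_injective hxy)
  have hsurj : Function.Surjective L := fun z => ⟨σ.symm (z + σ 0), by simp [L]⟩
  have hbij : Function.Bijective L := ⟨hinj, hsurj⟩
  refine ⟨LinearEquiv.ofBijective L hbij, σ 0, fun x => ?_⟩
  show σ x = (σ x - σ 0) + σ 0
  abel

end Cfsg.Agent.Lib.Helper19
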