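import Cfsg.Agent.Lib.Helper19.Derange

set_option autoImplicit false

namespace Cfsg.Agent.Lib.Helper19

open MulAction
open scoped Pointwise

section derange2

variable {G Ω : Type*} [Group G] [MulAction G Ω]

/-- If the index of the derangement subgroup is `n - 1`, then `n` is a prime power. -/
theorem isPrimePow_of_index_eq [Finite G] [Finite Ω] [IsPretransitive G Ω] [FaithfulSMul G Ω]
    (hΩ : 2 ≤ Nat.card Ω) (hidx : (derSubgroup G Ω).index = Nat.card Ω - 1) :
    IsPrimePow (Nat.card Ω) := by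
  classical
  have hne : Nonempty Ω := (Nat.card_pos_iff.mp (by omega)).1
  obtain ⟨α⟩ := hne
  haveI : Nonempty Ω := ⟨α⟩
  have hDn := derSubgroup_normal G Ω
  obtain ⟨htr, hkey⟩ := derSubgroup_key (G := G) (Ω := Ω)
  have hcompl : ({α}ᶜ : Set Ω).ncard = Nat.card Ω - 1 := by
    rw [Set.ncard_compl, Set.ncard_singleton]
  have horb : ∀ β : Ω, β ≠ α → orbit (stabilizer G α) β = ({α}ᶜ : Set Ω) ∧
      derSubgroup G Ω ⊓ stabilizer G α ≤ stabilizer G β := by
    intro β hβ
    have h1 := orbit_ncard_eq_mul_index (G := G) hβ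
    have hsub : orbit (stabilizer G α) β ⊆ ({α}ᶜ : Set Ω) := by
      rintro _ ⟨a, rfl⟩
      simp only [Set.mem_compl_iff, Set.mem_singleton_iff]
      intro h
      apply hβ
      have h2 : β = (a : G)⁻¹ • ((a : G) • β) := by simp
      have h3 : (a : G) • β = α := h
      rw [h2, h3]
      exact mem_stabilizer_iff.mp (Subgroup.inv_mem _ a.2)
    have hle : (orbit (stabilizer G α) β).ncard ≤ Nat.card Ω - 1 := by
      rw [← hcompl]
      exact Set.ncard_le_ncard hsub (Set.toFinite _)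
    have hpos : 0 < (orbit (stabilizer G α) β).ncard :=
      (Set.ncard_pos (Set.toFinite _)).mpr ⟨β, mem_orbit_self β⟩
    rw [h1, hidx] at hle hpos
    have hk : (stabilizer G α ⊓ stabilizer G β).relIndex (derSubgroup G Ω ⊓ stabilizer G α) = 1 := by
      set k := (stabilizer G α ⊓ stabilizer G β).relIndex (derSubgroup G Ω ⊓ stabilizer G α)
      have hn1 : 0 < Nat.card Ω - 1 := by omega
      have hk0 : 0 < k := Nat.pos_of_mul_pos_right hpos
      by_contra hk1
      have hk2 : 2 ≤ k := by omega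
      nlinarith
    constructor
    · apply Set.eq_of_subset_of_ncard_le hsub _ (Set.toFinite _)
      rw [hcompl, h1, hk, one_mul, hidx]
    · have h5 := Subgroup.relIndex_eq_one.mp hk
      exact h5.trans inf_le_right
  have hDA : derSubgroup G Ω ⊓ stabilizer G α = ⊥ := by
    rw [eq_bot_iff]
    intro g hg
    rw [Subgroup.mem_bot]
    apply FaithfulSMul.eq_of_smul_eq_smul (α := Ω)
    intro ω
    rw [one_smul]
    by_cases hω : ω = α
    · rw [hω]
      exact mem_stabilizer_iff.mp hg.2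
    · exact mem_stabilizer_iff.mp ((horb ω hω).2 hg)
  have hmove : ∀ d ∈ derSubgroup G Ω, d ≠ 1 → d • α ≠ α := by
    intro d hd hne h
    apply hne
    have h2 : d ∈ derSubgroup G Ω ⊓ stabilizer G α :=
      Subgroup.mem_inf.mpr ⟨hd, mem_stabilizer_iff.mpr h⟩
    rwa [hDA, Subgroup.mem_bot] at h2
  have hconj : ∀ d₁ ∈ derSubgroup G Ω, ∀ d₂ ∈ derSubgroup G Ω, d₁ ≠ 1 → d₂ ≠ 1 →
      orderOf d₁ = orderOf d₂ := by
    intro d₁ h₁ d₂ h₂ hne₁ hne₂
    have hd₁α := hmove d₁ h₁ hne₁
    have hd₂α := hmove d₂ h₂ hne₂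
    have hmem : d₂ • α ∈ orbit (stabilizer G α) (d₁ • α) := by
      rw [(horb _ hd₁α).1]
      simpa using hd₂α
    obtain ⟨a, ha⟩ := hmem
    have ha' : (a : G) • d₁ • α = d₂ • α := ha
    have hmem2 : d₂⁻¹ * ((a : G) * d₁ * (a : G)⁻¹) ∈ derSubgroup G Ω ⊓ stabilizer G α := by
      refine Subgroup.mem_inf.mpr
        ⟨Subgroup.mul_mem _ (Subgroup.inv_mem _ h₂) (hDn.conj_mem d₁ h₁ a), ?_⟩
      rw [mem_stabilizer_iff, mul_smul, mul_smul, mul_smul]
      have h3 : (a : G)⁻¹ • α = α := mem_stabilizer_iff.mp (Subgroup.inv_mem _ a.2)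
      rw [h3, ha']
      simp
    rw [hDA, Subgroup.mem_bot, inv_mul_eq_one] at hmem2
    rw [hmem2]
    have h4 := MulEquiv.orderOf_eq (MulAut.conj (a : G)) d₁
    rw [MulAut.conj_apply] at h4
    exact h4.symm
  have hcardD : Nat.card (derSubgroup G Ω) = Nat.card Ω := by
    apply Nat.card_eq_of_bijective (fun d : derSubgroup G Ω => (d : G) • α)
    constructor
    · intro d d' h
      have h' : (d : G) • α = (d' : G) • α := h
      have h2 : (d : G)⁻¹ * d' ∈ derSubgroup G Ω ⊓ stabilizer G α := by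
        refine Subgroup.mem_inf.mpr ⟨Subgroup.mul_mem _ (Subgroup.inv_mem _ d.2) d'.2, ?_⟩
        rw [mem_stabilizer_iff, mul_smul, ← h']
        simp
      rw [hDA, Subgroup.mem_bot, inv_mul_eq_one] at h2
      exact Subtype.ext h2
    · intro ω
      obtain ⟨d, hd⟩ := MulAction.exists_smul_eq (derSubgroup G Ω) α ω
      exact ⟨d, hd⟩
  have hD1 : 1 < Nat.card (derSubgroup G Ω) := by omega
  obtain ⟨p, hp, hpd⟩ := Nat.exists_prime_and_dvd (ne_of_gt hD1)
  have hfact : Fact p.Prime := ⟨hp⟩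
  obtain ⟨x, hx⟩ := exists_prime_orderOf_dvd_card' p hpd
  have hx1 : x ≠ 1 := by
    rintro rfl
    rw [orderOf_one] at hx
    exact hp.one_lt.ne hx
  have hpg : IsPGroup p (derSubgroup G Ω) := by
    intro d
    by_cases hd1 : d = 1
    · exact ⟨0, by rw [hd1]; simp⟩
    · refine ⟨1, ?_⟩
      have h5 := hconj x x.2 d d.2 (fun h => hx1 (Subtype.ext h)) (fun h => hd1 (Subtype.ext h))
      rw [Subgroup.orderOf_coe, Subgroup.orderOf_coe, hx] at h5
      rw [pow_one, h5]
      exact pow_orderOf_eq_one d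
  obtain ⟨k, hk⟩ := IsPGroup.iff_card.mp hpg
  rw [← hcardD, hk]
  have hk0 : k ≠ 0 := by
    rintro rfl
    rw [pow_zero] at hk
    omega
  exact hp.isPrimePow.pow hk0

/-- For an imprimitive transitive action, the index of the derangement subgroup is small. -/
theorem index_add_one_sq_le_of_imprimitive [Finite G] [Finite Ω] [IsPretransitive G Ω]
    (himp : ¬ IsPreprimitive G Ω) :
    ((derSubgroup G Ω).index + 1) ^ 2 ≤ Nat.card Ω := by
  have hex : ∃ B : Set Ω, IsBlock G B ∧ ¬ IsTrivialBlock B := by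
    by_contra hcon
    simp only [not_exists, not_and, not_not] at hcon
    exact himp ⟨fun {B} hB => hcon B hB⟩
  obtain ⟨B, hB, hBnt⟩ := hex
  rw [IsTrivialBlock, not_or] at hBnt
  obtain ⟨hns, hnu⟩ := hBnt
  have hBne : B.Nonempty := by
    by_contra h
    rw [Set.not_nonempty_iff_eq_empty] at h
    exact hns (h ▸ Set.subsingleton_empty)
  obtain ⟨α, hα⟩ := hBne
  haveI : Nonempty Ω := ⟨α⟩
  have hbdvd : B.ncard ∣ Nat.card Ω := MulAction.IsBlock.ncard_dvd_card hB ⟨α, hα⟩
  have hb1 : 1 < B.ncard := by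
    rw [Set.one_lt_ncard_iff (Set.toFinite B)]
    rw [Set.not_subsingleton_iff] at hns
    obtain ⟨x, hx, y, hy, hxy⟩ := hns
    exact ⟨x, y, hx, hy, hxy⟩
  have hbn : B.ncard < Nat.card Ω := by
    have h := Set.ncard_lt_ncard (s := B) (t := Set.univ) (Set.ssubset_univ_iff.mpr hnu)
      (Set.toFinite _)
    rwa [Set.ncard_univ] at h
  have hmb : (derSubgroup G Ω).index ∣ B.ncard - 1 := by
    have h := index_dvd_ncard_of_invariant (G := G) α (B \ {α}) (by simp) (by
      intro a ha x hx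
      have haB : a ∈ stabilizer G B := hB.stabilizer_le hα ha
      have h1 : a • B = B := mem_stabilizer_iff.mp haB
      refine ⟨?_, ?_⟩
      · rw [← h1]
        exact Set.smul_mem_smul_set hx.1
      · intro hax
        apply hx.2
        simp only [Set.mem_singleton_iff] at hax ⊢
        have h2 : x = a⁻¹ • (a • x) := by simp
        rw [h2, hax]
        exact mem_stabilizer_iff.mp (Subgroup.inv_mem _ ha))
    rwa [Set.ncard_sdiff_singleton_of_mem hα] at h
  have hmn : (derSubgroup G Ω).index ∣ Nat.card Ω - 1 := index_dvd_card_sub_one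
  obtain ⟨c, hc⟩ := hbdvd
  have hc1 : 1 < c := by
    by_contra hcon
    have : c ≤ 1 := by omega
    nlinarith
  have hmc : (derSubgroup G Ω).index ∣ c - 1 := by
    have h1 : Nat.card Ω - 1 = (B.ncard - 1) * c + (c - 1) := by
      rw [hc]
      obtain ⟨b', hb'⟩ : ∃ b', B.ncard = b' + 1 := ⟨B.ncard - 1, by omega⟩
      obtain ⟨c', hc'⟩ : ∃ c', c = c' + 1 := ⟨c - 1, by omega⟩
      rw [hb', hc']
      simp only [Nat.add_sub_cancel]
      have : (b' + 1) * (c' + 1) = b' * (c' + 1) + c' + 1 := by ring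
      omega
    rw [h1] at hmn
    exact (Nat.dvd_add_right (Dvd.dvd.mul_right hmb c)).mp hmn
  have hm_le_b : (derSubgroup G Ω).index ≤ B.ncard - 1 := Nat.le_of_dvd (by omega) hmb
  have hm_le_c : (derSubgroup G Ω).index ≤ c - 1 := Nat.le_of_dvd (by omega) hmc
  rw [hc]
  have h1 : (derSubgroup G Ω).index + 1 ≤ B.ncard := by omega
  have h2 : (derSubgroup G Ω).index + 1 ≤ c := by omega
  calc ((derSubgroup G Ω).index + 1) ^ 2
      = ((derSubgroup G Ω).index + 1) * ((derSubgroup G Ω).index + 1) := by ring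
    _ ≤ B.ncard * c := Nat.mul_le_mul h1 h2

end derange2

end Cfsg.Agent.Lib.Helper19
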