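import Mathlib

set_option autoImplicit false
set_option linter.unusedSectionVars false
set_option linter.unusedVariables false
set_option linter.style.haveILetI false

/-! The subring of endomorphisms of a finite abelian group generated by one endomorphism acting
irreducibly: it is a finite field with as many elements as the group. Consequences for the order
of the generating endomorphism and for groups normalizing it. -/

namespace Cfsg.Agent.Lib.Helper19.FieldEnd

variable {M : Type*} [AddCommGroup M]

/-- elements of the subring generated by `A` commute with `A` -/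
theorem comm_gen (A s : AddMonoid.End M)
    (hs : s ∈ Subring.closure ({A} : Set (AddMonoid.End M))) : s * A = A * s := by
  have h1 : Subring.closure ({A} : Set (AddMonoid.End M)) ≤
      Subring.centralizer ({A} : Set (AddMonoid.End M)) := by
    rw [Subring.closure_le]
    intro x hx
    rw [Set.mem_singleton_iff] at hx
    subst hx
    rw [SetLike.mem_coe, Subring.mem_centralizer_iff]
    intro g hg
    rw [Set.mem_singleton_iff] at hg
    subst hg
    rfl
  exact (Subring.mem_centralizer_iff.mp (h1 hs) A (Set.mem_singleton A)).symm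

/-- the subring generated by `A` is commutative -/
theorem comm_closure (A s t : AddMonoid.End M)
    (hs : s ∈ Subring.closure ({A} : Set (AddMonoid.End M)))
    (ht : t ∈ Subring.closure ({A} : Set (AddMonoid.End M))) : s * t = t * s := by
  have h1 : Subring.closure ({A} : Set (AddMonoid.End M)) ≤
      Subring.centralizer ({s} : Set (AddMonoid.End M)) := by
    rw [Subring.closure_le]
    intro x hx
    rw [Set.mem_singleton_iff] at hx
    subst hx
    rw [SetLike.mem_coe, Subring.mem_centralizer_iff]
    intro g hg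
    rw [Set.mem_singleton_iff] at hg
    subst hg
    exact comm_gen x g hs
  exact Subring.mem_centralizer_iff.mp (h1 ht) s (Set.mem_singleton s)

/-- a nonzero element of the subring generated by an irreducible `A` is injective -/
theorem inj_of_ne_zero (A : AddMonoid.End M)
    (hirr : ∀ W : AddSubgroup M, (∀ x ∈ W, A x ∈ W) → W = ⊥ ∨ W = ⊤)
    (s : AddMonoid.End M) (hs : s ∈ Subring.closure ({A} : Set (AddMonoid.End M)))
    (h0 : s ≠ 0) : ∀ x : M, s x = 0 → x = 0 := by
  let W : AddSubgroup M :=
    { carrier := {x | s x = 0}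
      zero_mem' := map_zero s
      add_mem' := fun {a b} ha hb => by
        show s (a + b) = 0
        rw [map_add, show s a = 0 from ha, show s b = 0 from hb, add_zero]
      neg_mem' := fun {a} ha => by
        show s (-a) = 0
        rw [map_neg, show s a = 0 from ha, neg_zero] }
  have hW : ∀ x, x ∈ W ↔ s x = 0 := fun x => Iff.rfl
  have h1 := hirr W (by
    intro x hx
    rw [hW] at hx ⊢
    have h2 : s (A x) = (s * A) x := rfl
    rw [h2, comm_gen A s hs]
    show A (s x) = 0
    rw [hx, map_zero])
  rcases h1 with h1 | h1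
  · intro x hx
    have h2 : x ∈ W := (hW x).mpr hx
    rw [h1] at h2
    exact AddSubgroup.mem_bot.mp h2
  · exfalso
    apply h0
    ext x
    have h2 : x ∈ W := by rw [h1]; trivial
    exact h2

theorem finite_end [Finite M] : Finite (AddMonoid.End M) :=
  Finite.of_injective (fun f : AddMonoid.End M => (f : M → M)) DFunLike.coe_injective

theorem nontrivial_end [Nontrivial M] : Nontrivial (AddMonoid.End M) := by
  obtain ⟨x, hx⟩ := exists_ne (0 : M)
  refine ⟨⟨0, 1, fun h => hx ?_⟩⟩
  have h1 : (0 : AddMonoid.End M) x = (1 : AddMonoid.End M) x := by rw [h]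
  exact h1.symm

/-- the subring generated by an irreducible `A` has as many elements as the group -/
theorem card_closure [Finite M] [Nontrivial M] (A : AddMonoid.End M)
    (hirr : ∀ W : AddSubgroup M, (∀ x ∈ W, A x ∈ W) → W = ⊥ ∨ W = ⊤) :
    Nat.card (Subring.closure ({A} : Set (AddMonoid.End M))) = Nat.card M := by
  obtain ⟨x₀, hx₀⟩ := exists_ne (0 : M)
  apply Nat.card_congr
  refine Equiv.ofBijective
    (fun s : Subring.closure ({A} : Set (AddMonoid.End M)) => (s : AddMonoid.End M) x₀) ⟨?_, ?_⟩
  · intro s t hst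
    have hst' : (s : AddMonoid.End M) x₀ = (t : AddMonoid.End M) x₀ := hst
    by_contra hne
    have h1 : ((s : AddMonoid.End M) - (t : AddMonoid.End M)) ≠ 0 := by
      intro h
      exact hne (Subtype.ext (sub_eq_zero.mp h))
    have h2 : ((s : AddMonoid.End M) - (t : AddMonoid.End M)) x₀ = 0 := by
      show (s : AddMonoid.End M) x₀ - (t : AddMonoid.End M) x₀ = 0
      rw [hst', sub_self]
    exact hx₀ (inj_of_ne_zero A hirr _ (Subring.sub_mem _ s.2 t.2) h1 x₀ h2)
  · intro y
    let W : AddSubgroup M :=
      { carrier := {y | ∃ s ∈ Subring.closure ({A} : Set (AddMonoid.End M)), s x₀ = y}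
        zero_mem' := ⟨0, Subring.zero_mem _, rfl⟩
        add_mem' := by
          rintro a b ⟨s, hs, rfl⟩ ⟨t, ht, rfl⟩
          exact ⟨s + t, Subring.add_mem _ hs ht, rfl⟩
        neg_mem' := by
          rintro a ⟨s, hs, rfl⟩
          exact ⟨-s, Subring.neg_mem _ hs, rfl⟩ }
    have hW : ∀ y, y ∈ W ↔ ∃ s ∈ Subring.closure ({A} : Set (AddMonoid.End M)), s x₀ = y :=
      fun y => Iff.rfl
    have h1 := hirr W (by
      intro x hx
      obtain ⟨s, hs, rfl⟩ := (hW x).mp hx
      exact (hW _).mpr ⟨A * s, Subring.mul_mem _ (Subring.subset_closure rfl) hs, rfl⟩)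
    have hx₀W : x₀ ∈ W := (hW x₀).mpr ⟨1, Subring.one_mem _, rfl⟩
    rcases h1 with h1 | h1
    · rw [h1] at hx₀W
      exact absurd (AddSubgroup.mem_bot.mp hx₀W) hx₀
    · have hy : y ∈ W := by rw [h1]; trivial
      obtain ⟨s, hs, hsy⟩ := (hW y).mp hy
      exact ⟨⟨s, hs⟩, hsy⟩

/-- Frobenius on the subring generated by `A` -/
theorem frob_closure (p : ℕ) [hp : Fact p.Prime] [Nontrivial M] (hexp : ∀ x : M, p • x = 0)
    (A : AddMonoid.End M) (i : ℕ) (hA : A ^ (p ^ i) = A) :
    ∀ s ∈ Subring.closure ({A} : Set (AddMonoid.End M)), s ^ (p ^ i) = s := by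
  haveI := nontrivial_end (M := M)
  haveI : CharP (AddMonoid.End M) p := (CharP.charP_iff_prime_eq_zero hp.out).mpr (by
    ext x
    exact hexp x)
  intro s hs
  refine Subring.closure_induction (p := fun s _ => s ^ (p ^ i) = s) ?_ ?_ ?_ ?_ ?_ ?_ hs
  · intro x hx
    rw [Set.mem_singleton_iff] at hx
    subst hx
    exact hA
  · exact zero_pow (Nat.pow_pos hp.out.pos).ne'
  · exact one_pow _
  · intro x y hx hy ihx ihy
    have hc : Commute x y := comm_closure A x y hx hy
    rw [add_pow_char_pow_of_commute p i hc, ihx, ihy]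
  · intro x hx ihx
    have hc : Commute (-x) x := (Commute.refl x).neg_left
    have h1 := add_pow_char_pow_of_commute p i hc
    rw [neg_add_cancel, zero_pow (Nat.pow_pos hp.out.pos).ne', ihx] at h1
    exact (neg_eq_of_add_eq_zero_left h1.symm).symm
  · intro x y hx hy ihx ihy
    have hc : Commute x y := comm_closure A x y hx hy
    rw [hc.mul_pow, ihx, ihy]

/-- the subring generated by an irreducible `A` has no zero divisors -/
theorem mul_eq_zero_closure (A : AddMonoid.End M)
    (hirr : ∀ W : AddSubgroup M, (∀ x ∈ W, A x ∈ W) → W = ⊥ ∨ W = ⊤)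
    (s t : AddMonoid.End M) (hs : s ∈ Subring.closure ({A} : Set (AddMonoid.End M)))
    (hst : s * t = 0) : s = 0 ∨ t = 0 := by
  by_cases h0 : s = 0
  · exact Or.inl h0
  · right
    ext x
    have h1 : s (t x) = 0 := by
      have h2 : (s * t) x = 0 := by rw [hst]; rfl
      exact h2
    exact inj_of_ne_zero A hirr s hs h0 _ h1

/-- a finite field all of whose elements are fixed by `x ↦ x ^ (p ^ i)` has at most
`p ^ i` elements -/
theorem card_le_of_frob_field {R : Type*} [Field R] [Finite R] (p i : ℕ) (hp : 1 < p)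
    (hi : i ≠ 0) (h : ∀ x : R, x ^ (p ^ i) = x) : Nat.card R ≤ p ^ i := by
  classical
  haveI := Fintype.ofFinite R
  have hne := FiniteField.X_pow_card_pow_sub_X_ne_zero R hi hp
  have hdeg := FiniteField.X_pow_card_pow_sub_X_natDegree_eq R hi hp
  have h1 : (Finset.univ : Finset R) ⊆
      (Polynomial.X ^ p ^ i - Polynomial.X : Polynomial R).roots.toFinset := by
    intro x _
    rw [Multiset.mem_toFinset, Polynomial.mem_roots hne]
    simp [h x]
  have h2 := Finset.card_le_card h1
  have h3 := Multiset.toFinset_card_le (Polynomial.X ^ p ^ i - Polynomial.X : Polynomial R).roots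
  have h4 := Polynomial.card_roots' (Polynomial.X ^ p ^ i - Polynomial.X : Polynomial R)
  rw [Nat.card_eq_fintype_card, ← Finset.card_univ]
  omega

/-- a finite commutative domain all of whose elements are fixed by `x ↦ x ^ (p ^ i)` has at most
`p ^ i` elements -/
theorem card_le_of_frob {R : Type*} [CommRing R] [IsDomain R] [Finite R] (p i : ℕ) (hp : 1 < p)
    (hi : i ≠ 0) (h : ∀ x : R, x ^ (p ^ i) = x) : Nat.card R ≤ p ^ i := by
  classical
  letI := Fintype.ofFinite R
  letI : Field R := Fintype.fieldOfDomain R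
  exact card_le_of_frob_field p i hp hi h

/-- a finite field of characteristic `p` with `p ^ d` elements has exactly `d` automorphisms -/
theorem card_aut_field (K : Type*) [Field K] [Finite K] (p d : ℕ) [hp : Fact p.Prime]
    [CharP K p] (hK : Nat.card K = p ^ d) : Nat.card (K ≃+* K) = d := by
  letI : Algebra (ZMod p) K := ZMod.algebra K p
  haveI : Module.Finite (ZMod p) K := Module.Finite.of_finite
  have h1 := IsGalois.card_aut_eq_finrank (ZMod p) K
  have h2 := Module.natCard_eq_pow_finrank (K := ZMod p) (V := K)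
  rw [hK, Nat.card_zmod] at h2
  have h3 : d = Module.finrank (ZMod p) K := Nat.pow_right_injective hp.out.two_le h2
  let e : (K ≃+* K) ≃ (K ≃ₐ[ZMod p] K) :=
    { toFun := fun f => AlgEquiv.ofRingEquiv (f := f) (fun x => by
        have h := Subsingleton.elim ((f : K →+* K).comp (algebraMap (ZMod p) K))
          (algebraMap (ZMod p) K)
        exact RingHom.congr_fun h x)
      invFun := fun g => g.toRingEquiv
      left_inv := fun f => by ext; rfl
      right_inv := fun g => by ext; rfl }
  rw [Nat.card_congr e, h1, ← h3]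

/-- a finite commutative domain of characteristic `p` with `p ^ d` elements has exactly `d`
automorphisms -/
theorem card_aut_domain (R : Type*) [CommRing R] [IsDomain R] [Finite R] (p d : ℕ)
    [hp : Fact p.Prime] (hp0 : (p : R) = 0) (hR : Nat.card R = p ^ d) :
    Nat.card (R ≃+* R) = d := by
  classical
  letI := Fintype.ofFinite R
  letI : Field R := Fintype.fieldOfDomain R
  haveI : CharP R p := (CharP.charP_iff_prime_eq_zero hp.out).mpr hp0
  exact card_aut_field R p d hR

/-- the subring generated by one endomorphism -/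
abbrev gen (A : AddMonoid.End M) : Subring (AddMonoid.End M) :=
  Subring.closure ({A} : Set (AddMonoid.End M))

/-- the commutative ring structure on the subring generated by `A` -/
@[reducible] def commRingGen (A : AddMonoid.End M) : CommRing (gen A) :=
  { (inferInstance : Ring (gen A)) with
    mul_comm := fun a b => Subtype.ext (comm_closure A a b a.2 b.2) }

theorem isDomain_gen [Nontrivial M] (A : AddMonoid.End M)
    (hirr : ∀ W : AddSubgroup M, (∀ x ∈ W, A x ∈ W) → W = ⊥ ∨ W = ⊤) : IsDomain (gen A) := by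
  haveI : Nontrivial (gen A) := by
    haveI := nontrivial_end (M := M)
    exact ⟨⟨0, 1, fun h => zero_ne_one (α := AddMonoid.End M) (congrArg Subtype.val h)⟩⟩
  haveI : NoZeroDivisors (gen A) := ⟨fun {a b} h => by
    have h1 : (a : AddMonoid.End M) * (b : AddMonoid.End M) = 0 := congrArg Subtype.val h
    rcases mul_eq_zero_closure A hirr _ _ a.2 h1 with h2 | h2
    · exact Or.inl (Subtype.ext h2)
    · exact Or.inr (Subtype.ext h2)⟩
  exact NoZeroDivisors.to_isDomain _

/-- if `A` is irreducible on a group of order `p ^ d` and exponent `p`, and `A ^ (p ^ i) = A`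
with `i ≠ 0`, then `d ≤ i` -/
theorem le_of_pow_eq (p d : ℕ) [hp : Fact p.Prime] [Finite M] [Nontrivial M]
    (hexp : ∀ x : M, p • x = 0) (hcard : Nat.card M = p ^ d) (A : AddMonoid.End M)
    (hirr : ∀ W : AddSubgroup M, (∀ x ∈ W, A x ∈ W) → W = ⊥ ∨ W = ⊤)
    (i : ℕ) (hi : i ≠ 0) (hA : A ^ (p ^ i) = A) : d ≤ i := by
  haveI := finite_end (M := M)
  letI : CommRing (gen A) := commRingGen A
  haveI : IsDomain (gen A) := isDomain_gen A hirr
  have h1 := card_le_of_frob (R := gen A) p i hp.out.one_lt hi (fun x => Subtype.ext (by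
    rw [Subring.coe_pow]
    exact frob_closure p hexp A i hA x x.2))
  rw [card_closure A hirr, hcard] at h1
  exact (Nat.pow_le_pow_iff_right hp.out.one_lt).mp h1

/-- a finite group acting on a group of order `p ^ d` and exponent `p`, normalizing the cyclic
group generated by an element acting irreducibly: its order divides `d` times the order of the
centralizer of that element -/
theorem card_dvd_of_normalizes (p d : ℕ) [hp : Fact p.Prime] [Finite M] [Nontrivial M]
    (hexp : ∀ x : M, p • x = 0) (hcard : Nat.card M = p ^ d)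
    {Γ : Type*} [Group Γ] [Finite Γ] (ρ : Γ →* AddMonoid.End M) (τ : Γ)
    (hnorm : ∀ γ : Γ, ∃ j : ℕ, γ * τ * γ⁻¹ = τ ^ j)
    (hirr : ∀ W : AddSubgroup M, (∀ x ∈ W, ρ τ x ∈ W) → W = ⊥ ∨ W = ⊤)
    (K₀ : Subgroup Γ) (hK : ∀ γ : Γ, ρ γ * ρ τ = ρ τ * ρ γ → γ ∈ K₀) :
    Nat.card Γ ∣ Nat.card K₀ * d := by
  classical
  obtain ⟨A, hAdef⟩ : ∃ A : AddMonoid.End M, A = ρ τ := ⟨_, rfl⟩
  rw [← hAdef] at hirr hK
  have hinv : ∀ γ : Γ, ρ γ⁻¹ * ρ γ = 1 := fun γ => by rw [← map_mul, inv_mul_cancel, map_one]
  have hinv' : ∀ γ : Γ, ρ γ * ρ γ⁻¹ = 1 := fun γ => by rw [← map_mul, mul_inv_cancel, map_one]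
  let cj : Γ → (AddMonoid.End M →+* AddMonoid.End M) := fun γ =>
    { toFun := fun s => ρ γ * s * ρ γ⁻¹
      map_one' := by rw [mul_one, hinv']
      map_mul' := fun s t => by
        calc ρ γ * (s * t) * ρ γ⁻¹ = ρ γ * s * 1 * t * ρ γ⁻¹ := by
              simp only [mul_one, mul_assoc]
          _ = ρ γ * s * ρ γ⁻¹ * (ρ γ * t * ρ γ⁻¹) := by
              rw [← hinv γ]; simp only [mul_assoc]
      map_zero' := by rw [mul_zero, zero_mul]
      map_add' := fun s t => by rw [mul_add, add_mul] }
  have hcj : ∀ γ s, cj γ s = ρ γ * s * ρ γ⁻¹ := fun γ s => rfl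
  have hcjR : ∀ γ : Γ, ∀ s ∈ gen A, cj γ s ∈ gen A := by
    intro γ
    have h1 : gen A ≤ (gen A).comap (cj γ) := by
      rw [Subring.closure_le]
      intro x hx
      rw [Set.mem_singleton_iff] at hx
      rw [hx, SetLike.mem_coe, Subring.mem_comap, hcj]
      obtain ⟨j, hj⟩ := hnorm γ
      have h2 : ρ γ * A * ρ γ⁻¹ = A ^ j := by
        rw [hAdef, ← map_mul, ← map_mul, hj, map_pow]
      rw [h2]
      exact Subring.pow_mem (gen A) (Subring.subset_closure (Set.mem_singleton A)) j
    intro s hs
    exact Subring.mem_comap.mp (h1 hs)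
  let θ : Γ → (gen A →+* gen A) := fun γ =>
    ((cj γ).comp (Subring.subtype _)).codRestrict _ (fun s => hcjR γ s s.2)
  have hθ : ∀ γ (s : gen A), ((θ γ s : gen A) : AddMonoid.End M) = ρ γ * s * ρ γ⁻¹ :=
    fun γ s => rfl
  have hθ1 : θ 1 = RingHom.id _ := by
    apply RingHom.ext
    intro s
    apply Subtype.ext
    rw [hθ, inv_one, map_one, one_mul, mul_one]
    rfl
  have hθmul : ∀ γ γ' : Γ, θ (γ * γ') = (θ γ).comp (θ γ') := by
    intro γ γ'
    apply RingHom.ext
    intro s
    apply Subtype.ext
    rw [hθ, RingHom.comp_apply, hθ, hθ, mul_inv_rev, map_mul, map_mul]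
    simp only [mul_assoc]
  let Φ : Γ →* RingAut (gen A) :=
    { toFun := fun γ => RingEquiv.ofRingHom (θ γ) (θ γ⁻¹)
        (by rw [← hθmul, mul_inv_cancel, hθ1]) (by rw [← hθmul, inv_mul_cancel, hθ1])
      map_one' := by
        apply RingEquiv.ext
        intro s
        show θ 1 s = s
        rw [hθ1]
        rfl
      map_mul' := fun γ γ' => by
        apply RingEquiv.ext
        intro s
        show θ (γ * γ') s = θ γ (θ γ' s)
        rw [hθmul]
        rfl }
  have hker : Φ.ker ≤ K₀ := by
    intro γ hγ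
    rw [MonoidHom.mem_ker] at hγ
    apply hK
    have h1 : Φ γ ⟨A, Subring.subset_closure rfl⟩ = ⟨A, Subring.subset_closure rfl⟩ := by
      rw [hγ]
      rfl
    have h2 : ρ γ * A * ρ γ⁻¹ = A := congrArg Subtype.val h1
    calc ρ γ * A = ρ γ * A * (ρ γ⁻¹ * ρ γ) := by rw [hinv, mul_one]
      _ = (ρ γ * A * ρ γ⁻¹) * ρ γ := by simp only [mul_assoc]
      _ = A * ρ γ := by rw [h2]
  haveI := finite_end (M := M)
  letI : CommRing (gen A) := commRingGen A
  haveI : IsDomain (gen A) := isDomain_gen A hirr
  have hp0 : ((p : ℕ) : gen A) = 0 := Subtype.ext (by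
    rw [Subring.coe_natCast]
    ext x
    exact hexp x)
  have hcardR : Nat.card (gen A) = p ^ d := by rw [card_closure A hirr, hcard]
  have haut : Nat.card (RingAut (gen A)) = d := card_aut_domain (gen A) p d hp0 hcardR
  have h1 : Nat.card Φ.range ∣ d := by
    rw [← haut]
    exact Subgroup.card_subgroup_dvd_card _
  have h2 : Nat.card Φ.ker * Nat.card Φ.range = Nat.card Γ := by
    rw [← Subgroup.index_ker]
    exact Subgroup.card_mul_index _
  rw [← h2]
  exact Nat.mul_dvd_mul (Subgroup.card_dvd_of_le hker) h1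

end Cfsg.Agent.Lib.Helper19.FieldEnd
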