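import Mathlib
import Cfsg.Agent.Lib.Helper19.RelIndex

set_option autoImplicit false

namespace Cfsg.Agent.Lib.Helper19

open scoped Pointwise

/-- A self-normalising `p`-subgroup is a Sylow `p`-subgroup. -/
theorem sylow_of_normalizer_eq {G : Type*} [Group G] [Finite G] (p : ℕ) [Fact p.Prime]
    (H : Subgroup G) (hH : IsPGroup p H) (hN : Subgroup.normalizer (H : Set G) = H) :
    ∃ P : Sylow p G, (P : Subgroup G) = H := by
  obtain ⟨P, hP⟩ := hH.exists_le_sylow
  refine ⟨P, le_antisymm ?_ hP⟩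
  by_contra hnot
  have hnil : Group.IsNilpotent (P : Subgroup G) := P.isPGroup'.isNilpotent
  have hlt : H.subgroupOf (P : Subgroup G) < ⊤ := by
    rw [lt_top_iff_ne_top]
    intro h
    exact hnot (Subgroup.subgroupOf_eq_top.mp h)
  have hnc := Group.normalizerCondition_of_isNilpotent (G := (P : Subgroup G)) _ hlt
  obtain ⟨x, hx1, hx2⟩ := SetLike.exists_of_lt hnc
  apply hx2
  rw [Subgroup.mem_subgroupOf, ← hN, Subgroup.mem_normalizer_iff]
  intro h
  constructor
  · intro hh
    have h1 := (Subgroup.mem_normalizer_iff.mp hx1 ⟨h, hP hh⟩).mp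
      (by rw [Subgroup.mem_subgroupOf]; exact hh)
    rw [Subgroup.mem_subgroupOf] at h1
    exact h1
  · intro hh
    have hhP : h ∈ (P : Subgroup G) := by
      have h2 : (x : G)⁻¹ * ((x : G) * h * (x : G)⁻¹) * (x : G) ∈ (P : Subgroup G) :=
        (P : Subgroup G).mul_mem ((P : Subgroup G).mul_mem ((P : Subgroup G).inv_mem x.2)
          (hP hh)) x.2
      have h3 : (x : G)⁻¹ * ((x : G) * h * (x : G)⁻¹) * (x : G) = h := by group
      rwa [h3] at h2
    have h1 := (Subgroup.mem_normalizer_iff.mp hx1 ⟨h, hhP⟩).mpr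
      (by rw [Subgroup.mem_subgroupOf]; exact hh)
    rw [Subgroup.mem_subgroupOf] at h1
    exact h1

/-- A `p`-subgroup acting on a normal `p'`-subgroup `K` normalises some Sylow `q`-subgroup of
`K`. -/
theorem exists_invariant_sylow {G : Type*} [Group G] [Finite G] (p q : ℕ) [Fact p.Prime]
    [Fact q.Prime] (K H : Subgroup G) [K.Normal] (hH : IsPGroup p H) (hK : ¬ p ∣ Nat.card K) :
    ∃ Q : Sylow q K, H ≤ Subgroup.normalizer (((Q : Subgroup K).map K.subtype : Subgroup G) : Set G) := by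
  let A : Subgroup (MulAut K) := H.map (MulAut.conjNormal (H := K))
  have hA : IsPGroup p A := hH.map _
  have hmod := hA.card_modEq_card_fixedPoints (α := Sylow q K)
  have hne : Nonempty (MulAction.fixedPoints A (Sylow q K)) := by
    by_contra hemp
    rw [not_nonempty_iff] at hemp
    have hz : Nat.card (MulAction.fixedPoints A (Sylow q K)) = 0 := Nat.card_of_isEmpty
    rw [hz] at hmod
    have h1 : p ∣ Nat.card (Sylow q K) := (Nat.modEq_zero_iff_dvd).mp hmod
    obtain ⟨Q0⟩ : Nonempty (Sylow q K) := inferInstance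
    have h2 : Nat.card (Sylow q K) ∣ Nat.card K :=
      dvd_trans (Sylow.card_dvd_index Q0) (Subgroup.index_dvd_card _)
    exact hK (dvd_trans h1 h2)
  obtain ⟨⟨Q, hQ⟩⟩ := hne
  refine ⟨Q, ?_⟩
  have key : ∀ h ∈ H, ∀ x ∈ ((Q : Subgroup K).map K.subtype : Subgroup G),
      h * x * h⁻¹ ∈ ((Q : Subgroup K).map K.subtype : Subgroup G) := by
    intro h hh x hx
    obtain ⟨k, hk, rfl⟩ := Subgroup.mem_map.mp hx
    have ha : (MulAut.conjNormal (H := K)) h ∈ A := Subgroup.mem_map_of_mem _ hh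
    have h1 : (⟨MulAut.conjNormal (H := K) h, ha⟩ : A) • Q = Q := hQ ⟨_, ha⟩
    have h2 : (MulAut.conjNormal (H := K) h) • (Q : Subgroup K) = (Q : Subgroup K) := by
      have h3 := congrArg (fun S : Sylow q K => (S : Subgroup K)) h1
      exact h3
    have h4 : (MulAut.conjNormal (H := K) h) • k ∈ (MulAut.conjNormal (H := K) h) • (Q : Subgroup K) :=
      Subgroup.smul_mem_pointwise_smul k _ _ hk
    rw [h2] at h4
    refine Subgroup.mem_map.mpr ⟨_, h4, ?_⟩
    rw [MulAut.smul_def]
    exact MulAut.conjNormal_apply h k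
  intro h hh
  rw [Subgroup.mem_normalizer_iff]
  intro x
  constructor
  · exact key h hh x
  · intro hx
    have h1 := key h⁻¹ (H.inv_mem hh) _ hx
    have h2 : h⁻¹ * (h * x * h⁻¹) * h⁻¹⁻¹ = x := by group
    rwa [h2] at h1

end Cfsg.Agent.Lib.Helper19
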