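import Mathlib

set_option autoImplicit false

namespace Cfsg.Agent.Lib.Helper19

open Polynomial

/-- A weak form of Rédei's theorem on directions (after Lovász and Schrijver): a function on the
prime field such that `x ↦ f x - c * x` is injective for more than half of the slopes `c` is
affine. -/
theorem redei_light (p : ℕ) [Fact p.Prime] (hp3 : 3 ≤ p) (f : ZMod p → ZMod p)
    (S : Finset (ZMod p)) (hS : p < 2 * S.card)
    (hinj : ∀ c ∈ S, Function.Injective (fun x => f x - c * x)) :
    ∀ x, f x = (f 1 - f 0) * x + f 0 := by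
  classical
  have hpp : p.Prime := Fact.out
  -- the elementary symmetric functions of the values `f x - c * x`, as polynomials in `c`
  let h : ℕ → (ZMod p)[X] := fun j =>
    ∑ T ∈ (Finset.univ : Finset (ZMod p)).powersetCard j, ∏ x ∈ T, (C (f x) - C x * X)
  have hlin : ∀ x : ZMod p, (C (f x) - C x * X : (ZMod p)[X]).natDegree ≤ 1 := by
    intro x
    refine le_trans (Polynomial.natDegree_sub_le _ _) ?_
    rw [Polynomial.natDegree_C]
    refine max_le (Nat.zero_le _) ?_
    exact le_trans (Polynomial.natDegree_C_mul_le _ _) (by simp)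
  have hdeg : ∀ j, (h j).natDegree ≤ j := by
    intro j
    apply Polynomial.natDegree_sum_le_of_forall_le
    intro T hT
    have hc : T.card = j := (Finset.mem_powersetCard.mp hT).2
    have h1 : (∏ x ∈ T, (C (f x) - C x * X : (ZMod p)[X])).natDegree
        ≤ ∑ x ∈ T, (C (f x) - C x * X : (ZMod p)[X]).natDegree :=
      Polynomial.natDegree_prod_le _ _
    have h2 : ∑ x ∈ T, (C (f x) - C x * X : (ZMod p)[X]).natDegree ≤ ∑ x ∈ T, 1 :=
      Finset.sum_le_sum (fun x _ => hlin x)
    have h3 : ∑ x ∈ T, 1 = j := by simp [hc]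
    omega
  let R : ZMod p → (ZMod p)[X] := fun c => ∏ x : ZMod p, (X - C (f x - c * x))
  have hcoeff : ∀ c k, k ≤ p → (R c).coeff k = (-1) ^ (p - k) * (h (p - k)).eval c := by
    intro c k hk
    have h1 : R c = ((Finset.univ.val.map (fun x => f x - c * x)).map (fun t => X - C t)).prod := by
      simp only [R, Finset.prod, Multiset.map_map]
      rfl
    have hcard : Multiset.card (Finset.univ.val.map (fun x : ZMod p => f x - c * x)) = p := by
      simp [ZMod.card]
    rw [h1, Multiset.prod_X_sub_C_coeff _ (by rw [hcard]; exact hk), hcard, Finset.esymm_map_val]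
    simp only [h, Polynomial.eval_finsetSum, Polynomial.eval_prod, eval_sub, eval_C, eval_mul,
      eval_X]
    congr 1
    apply Finset.sum_congr rfl
    intro T _
    apply Finset.prod_congr rfl
    intro x _
    ring
  have hone : 1 < p := hpp.one_lt
  have hodd : p % 2 = 1 := by
    rcases hpp.eq_two_or_odd with h2 | h2
    · omega
    · exact h2
  have hRS : ∀ c ∈ S, R c = X ^ p - X := by
    intro c hc
    have hbij : Function.Bijective (fun x => f x - c * x) :=
      (Finite.injective_iff_bijective).mp (hinj c hc)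
    have h1 : R c = ∏ z : ZMod p, (X - C z) :=
      Fintype.prod_bijective _ hbij _ _ (fun x => rfl)
    rw [h1]
    have hmonic : (X ^ p - X : (ZMod p)[X]).Monic :=
      Polynomial.monic_X_pow_sub (by rw [degree_X]; exact_mod_cast hone)
    have hroots : (X ^ p - X : (ZMod p)[X]).roots = Finset.univ.val := by
      have h2 := FiniteField.roots_X_pow_card_sub_X (ZMod p)
      rwa [ZMod.card] at h2
    have h3 := Polynomial.prod_multiset_X_sub_C_of_monic_of_roots_card_eq hmonic (by
      rw [hroots, FiniteField.X_pow_card_sub_X_natDegree_eq _ hone]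
      simp [ZMod.card])
    rw [hroots] at h3
    rw [← h3]
    rfl
  have hzero : ∀ j, 1 ≤ j → 2 * j + 1 ≤ p → h j = 0 := by
    intro j hj1 hj2
    apply Polynomial.eq_zero_of_natDegree_lt_card_of_eval_eq_zero' (h j) S
    · intro c hc
      have h1 := hcoeff c (p - j) (Nat.sub_le p j)
      rw [hRS c hc] at h1
      have h2 : (X ^ p - X : (ZMod p)[X]).coeff (p - j) = 0 := by
        rw [Polynomial.coeff_sub, Polynomial.coeff_X_pow, Polynomial.coeff_X]
        rw [if_neg (by omega), if_neg (by omega)]
        simp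
      rw [h2, Nat.sub_sub_self (by omega : j ≤ p)] at h1
      have h3 : ((-1 : ZMod p) ^ j) ≠ 0 := pow_ne_zero _ (neg_ne_zero.mpr one_ne_zero)
      exact (mul_eq_zero.mp h1.symm).resolve_left h3
    · calc (h j).natDegree ≤ j := hdeg j
        _ < S.card := by omega
  have hv01 : f 0 - (f 1 - f 0) * 0 = f 1 - (f 1 - f 0) * 1 := by ring
  have hRc : ∀ k, p + 1 ≤ 2 * k → k < p → (R (f 1 - f 0)).coeff k = 0 := by
    intro k hk1 hk2
    rw [hcoeff (f 1 - f 0) k hk2.le, hzero (p - k) (by omega) (by omega)]
    simp
  have hRmonic : (R (f 1 - f 0)).Monic :=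
    Polynomial.monic_prod_of_monic _ _ (fun x _ => Polynomial.monic_X_sub_C _)
  have hRdeg : (R (f 1 - f 0)).natDegree = p := by
    show (∏ x : ZMod p, (X - C (f x - (f 1 - f 0) * x))).natDegree = p
    rw [Polynomial.natDegree_prod_of_monic _ _ (fun x _ => Polynomial.monic_X_sub_C _)]
    simp only [Polynomial.natDegree_X_sub_C, Finset.sum_const, Finset.card_univ, ZMod.card,
      smul_eq_mul, mul_one]
  have hg : (R (f 1 - f 0) - X ^ p).natDegree ≤ (p - 1) / 2 := by
    rw [Polynomial.natDegree_le_iff_coeff_eq_zero]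
    intro k hk
    rw [Polynomial.coeff_sub, Polynomial.coeff_X_pow]
    by_cases hkp : k = p
    · rw [if_pos hkp, hkp]
      have h1 := hRmonic.coeff_natDegree
      rw [hRdeg] at h1
      rw [h1]
      ring
    · rw [if_neg hkp, sub_zero]
      by_cases hlt : k < p
      · exact hRc k (by omega) hlt
      · exact Polynomial.coeff_eq_zero_of_natDegree_lt (by rw [hRdeg]; omega)
  have hpzero : ((p : ℕ) : (ZMod p)[X]) = 0 := by
    rw [← Polynomial.C_eq_natCast, ZMod.natCast_self, C_0]
  have hder : derivative (R (f 1 - f 0)) = derivative (R (f 1 - f 0) - X ^ p) := by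
    rw [derivative_sub, derivative_X_pow, Polynomial.C_eq_natCast, hpzero]
    simp
  have hdvd1 : R (f 1 - f 0) ∣ (X ^ p - X) * derivative (R (f 1 - f 0)) := by
    show (∏ x : ZMod p, (X - C (f x - (f 1 - f 0) * x))) ∣
      (X ^ p - X) * derivative (∏ x : ZMod p, (X - C (f x - (f 1 - f 0) * x)))
    rw [derivative_prod_finset, Finset.mul_sum]
    apply Finset.dvd_sum
    intro x _
    rw [derivative_sub, derivative_X, derivative_C, sub_zero, mul_one]
    have h1 : (X - C (f x - (f 1 - f 0) * x)) ∣ (X ^ p - X : (ZMod p)[X]) := by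
      rw [Polynomial.dvd_iff_isRoot]
      simp [ZMod.pow_card]
    rw [← Finset.mul_prod_erase Finset.univ (fun x => X - C (f x - (f 1 - f 0) * x))
      (Finset.mem_univ x)]
    exact mul_dvd_mul h1 dvd_rfl
  have hdvd2 : R (f 1 - f 0) ∣
      (R (f 1 - f 0) - X ^ p + X) * derivative (R (f 1 - f 0) - X ^ p) := by
    have h1 : (R (f 1 - f 0) - X ^ p + X) * derivative (R (f 1 - f 0) - X ^ p) =
        R (f 1 - f 0) * derivative (R (f 1 - f 0) - X ^ p) -
          (X ^ p - X) * derivative (R (f 1 - f 0)) := by
      rw [hder]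
      ring
    rw [h1]
    exact dvd_sub (dvd_mul_right _ _) hdvd1
  have hprod0 : (R (f 1 - f 0) - X ^ p + X) * derivative (R (f 1 - f 0) - X ^ p) = 0 := by
    apply Polynomial.eq_zero_of_dvd_of_natDegree_lt hdvd2
    rw [hRdeg]
    have h1 : (R (f 1 - f 0) - X ^ p + X).natDegree ≤ (p - 1) / 2 := by
      refine le_trans (Polynomial.natDegree_add_le _ _) (max_le hg ?_)
      rw [natDegree_X]
      omega
    have h2 : (derivative (R (f 1 - f 0) - X ^ p)).natDegree ≤ (p - 1) / 2 - 1 :=
      le_trans (natDegree_derivative_le _) (Nat.sub_le_sub_right hg 1)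
    calc ((R (f 1 - f 0) - X ^ p + X) * derivative (R (f 1 - f 0) - X ^ p)).natDegree
        ≤ (R (f 1 - f 0) - X ^ p + X).natDegree +
          (derivative (R (f 1 - f 0) - X ^ p)).natDegree := natDegree_mul_le
      _ ≤ (p - 1) / 2 + ((p - 1) / 2 - 1) := add_le_add h1 h2
      _ < p := by omega
  rcases mul_eq_zero.mp hprod0 with h1 | h1
  · exfalso
    have hR : R (f 1 - f 0) = X ^ p - X := by linear_combination h1
    have hsurj : Function.Surjective (fun x => f x - (f 1 - f 0) * x) := by
      intro z
      have hz : (R (f 1 - f 0)).eval z = 0 := by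
        rw [hR]
        simp [ZMod.pow_card]
      simp only [R, Polynomial.eval_prod, eval_sub, eval_X, eval_C] at hz
      obtain ⟨x, _, hx⟩ := Finset.prod_eq_zero_iff.mp hz
      exact ⟨x, (sub_eq_zero.mp hx).symm⟩
    have hinj' := Finite.injective_iff_surjective.mpr hsurj
    have h01 : (0 : ZMod p) = 1 := hinj' hv01
    exact zero_ne_one h01
  · have hgc : ∀ n, 1 ≤ n → (R (f 1 - f 0) - X ^ p).coeff n = 0 := by
      intro n hn
      by_cases hnd : n ≤ (p - 1) / 2
      · have h2 : (derivative (R (f 1 - f 0) - X ^ p)).coeff (n - 1) = 0 := by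
          rw [h1]
          simp
        rw [Polynomial.coeff_derivative] at h2
        have h3 : n - 1 + 1 = n := by omega
        rw [h3] at h2
        have h4 : (((n - 1 : ℕ) : ZMod p) + 1) ≠ 0 := by
          have h5 : (((n - 1 : ℕ) : ZMod p) + 1) = ((n : ℕ) : ZMod p) := by
            rw [← Nat.cast_one (R := ZMod p), ← Nat.cast_add, h3]
          rw [h5]
          intro h0
          rw [ZMod.natCast_eq_zero_iff] at h0
          have h6 := Nat.le_of_dvd (by omega) h0
          omega
        exact (mul_eq_zero.mp h2).resolve_right h4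
      · exact Polynomial.coeff_eq_zero_of_natDegree_lt (by omega)
    have hRform : R (f 1 - f 0) = X ^ p + C ((R (f 1 - f 0) - X ^ p).coeff 0) := by
      have h2 : R (f 1 - f 0) - X ^ p = C ((R (f 1 - f 0) - X ^ p).coeff 0) := by
        ext n
        rcases Nat.eq_zero_or_pos n with rfl | hn
        · rw [Polynomial.coeff_C_zero]
        · rw [hgc n hn, Polynomial.coeff_C, if_neg (by omega)]
      linear_combination h2
    have hroot : ∀ x, (R (f 1 - f 0)).eval (f x - (f 1 - f 0) * x) = 0 := by
      intro x
      simp only [R, Polynomial.eval_prod, eval_sub, eval_X, eval_C]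
      exact Finset.prod_eq_zero (Finset.mem_univ x) (sub_self _)
    intro x
    have hx := hroot x
    have h0 := hroot 0
    rw [hRform] at hx h0
    simp only [eval_add, eval_pow, eval_X, eval_C, ZMod.pow_card] at hx h0
    linear_combination hx - h0

end Cfsg.Agent.Lib.Helper19
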